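import Mathlib
import Cfsg.Agent.H163.E6.Sit
import Cfsg.Agent.H882.E6Five
import Cfsg.Agent.H333.E6Act
import Cfsg.Agent.H944.E6Tab
import Cfsg.Agent.H16.E6.Cov

/-!
# S5927, S5928, case `n = 5`, `p = 5` (helper952)

`A₅` in characteristic 5 on the 27-dimensional module `V`, without fixed vectors on `V` and `V'`.  Scott's formula gives
`ev V (2) = 11`; the vectors fixed by the dihedral group of order 10 form a space of dimension at most one (`plus_le`), so
its sign component `X₀` on `V` has dimension at least 5.  The operator `sop` (sum of the other five axes) has square `5 = 0`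
on `X₀`, so its kernel `X` has dimension at least 3 and there `sh` is a quadratic form with values in a space of dimension
at most one: there is a zero `u ≠ 0`, and the three-dimensional module generated by `u` is totally singular.
-/

set_option autoImplicit false

namespace Cfsg.Agent.H952.E6FiveFive

open Cfsg Cfsg.Lie Module
open Cfsg.Agent.H952.F4 (ev es matRep sh cr tf MaxAlt v0 v1 c3 z5)
open Cfsg.Agent.H952.F4.Spec (Ax ax mul_act act_inj mem_es)
open Cfsg.Agent.H882.E6Five (sop sop_apply sop_mem axes closure_eq span_stable linInd exists_zero split exists_coord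
  hom_trivial hom_gl_two dual_bot ev_one_one)

universe u

section plus

variable {F V : Type*} [Field F] [AddCommGroup V] [Module F V]
  {ρ : Representation F ↥(alternatingGroup (Fin 5)) V}

/-- the action on the six conjugates of a vector fixed by the dihedral group of order 10 -/
structure Axp (ρ : Representation F ↥(alternatingGroup (Fin 5)) V) (a b c d e f : V) : Prop where
  za : ρ z5 a = a
  zb : ρ z5 b = d
  zc : ρ z5 c = b
  zd : ρ z5 d = f
  ze : ρ z5 e = c
  zf : ρ z5 f = e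
  pa : ρ v0 a = a
  pb : ρ v0 b = b
  pc : ρ v0 c = d
  pd : ρ v0 d = c
  qa : ρ v1 a = b
  qb : ρ v1 b = a
  qc : ρ v1 c = c
  qd : ρ v1 d = d
  ca : ρ c3 a = c
  cb : ρ c3 b = d
  cc : ρ c3 c = e
  cd : ρ c3 d = f
  ce : ρ c3 e = a
  cf : ρ c3 f = b

theorem axp {x : V} (hz : ρ z5 x = x) (hv : ρ v0 x = x) :
    Axp ρ x (ρ v1 x) (ρ c3 x) (ρ c3 (ρ v1 x)) (ρ c3 (ρ c3 x)) (ρ c3 (ρ c3 (ρ v1 x))) := by
  have hz2 : ρ (z5 * z5) x = x := by rw [mul_act, hz, hz]
  have hz3 : ρ (z5 * (z5 * z5)) x = x := by rw [mul_act, hz2, hz]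
  have hz4 : ρ (z5 * (z5 * (z5 * z5))) x = x := by rw [mul_act, hz3, hz]
  have e1 : z5 * c3 = v1 * (z5 * (z5 * z5) * v0) := by decide +kernel
  have e2 : z5 * v1 = c3 * v1 * (z5 * z5 * v0) := by decide +kernel
  have e3 : z5 * c3 * v1 = c3 * (c3 * v1) * (z5 * v0) := by decide +kernel
  have e4 : z5 * c3 * c3 * v1 = c3 * c3 * (z5 * (z5 * z5) * v0) := by decide +kernel
  have e5 : z5 * c3 * c3 = c3 * (z5 * (z5 * (z5 * z5))) := by decide +kernel
  have f1 : v0 * v1 = v1 * v0 := by decide +kernel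
  have f2 : v0 * c3 = c3 * (v1 * v0) := by decide +kernel
  have f3 : v0 * c3 * v1 = c3 * v0 := by decide +kernel
  have g1 : v1 * v1 = 1 := by decide +kernel
  have g2 : v1 * c3 = c3 * v0 := by decide +kernel
  have g3 : v1 * c3 * v1 = c3 * (v1 * v0) := by decide +kernel
  have k1 : c3 * c3 * c3 = 1 := by decide +kernel
  have one_act : ∀ y : V, ρ 1 y = y := fun y => by rw [map_one]; rfl
  refine ⟨hz, ?_, ?_, ?_, ?_, ?_, hv, ?_, ?_, ?_, rfl, ?_, ?_, ?_, rfl, rfl, rfl, rfl, ?_, ?_⟩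
  · rw [← mul_act, e2]; simp only [mul_act, hv, hz]
  · rw [← mul_act, e1]; simp only [mul_act, hv, hz]
  · rw [← mul_act, ← mul_act, e3]; simp only [mul_act, hv, hz]
  · rw [← mul_act, ← mul_act, e5]; simp only [mul_act, hz]
  · rw [← mul_act, ← mul_act, ← mul_act, e4]; simp only [mul_act, hv, hz]
  · rw [← mul_act, f1]; simp only [mul_act, hv]
  · rw [← mul_act, f2]; simp only [mul_act, hv]
  · rw [← mul_act, ← mul_act, f3]; simp only [mul_act, hv]
  · rw [← mul_act, g1, one_act]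
  · rw [← mul_act, g2]; simp only [mul_act, hv]
  · rw [← mul_act, ← mul_act, g3]; simp only [mul_act, hv]
  · rw [← mul_act, ← mul_act, k1, one_act]
  · rw [← mul_act, ← mul_act, k1, one_act]

/-- the sum of the six axes is zero -/
theorem Axp.sum {a b c d e f : V} (A : Axp ρ a b c d e f) (hinv : ρ.invariants = ⊥) :
    a + b + c + d + e + f = 0 := by
  have h : a + b + c + d + e + f ∈ ρ.invariants := by
    rw [Representation.mem_invariants]
    intro g
    have hg : g ∈ Subgroup.closure {z5, c3} := by rw [closure_eq]; trivial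
    induction hg using Subgroup.closure_induction with
    | mem x hx =>
      rcases hx with rfl | rfl
      · simp only [map_add, A.za, A.zb, A.zc, A.zd, A.ze, A.zf]; abel
      · simp only [map_add, A.ca, A.cb, A.cc, A.cd, A.ce, A.cf]; abel
    | one => rw [map_one]; rfl
    | mul x y _ _ hx hy => rw [mul_act, hy, hx]
    | inv x _ hx =>
      apply act_inj (ρ := ρ) (g := x)
      rw [← mul_act, mul_inv_cancel, map_one, hx]
      rfl
  rwa [hinv, Submodule.mem_bot] at h

/-- the sum over `⟨z5⟩` -/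
def zeta (ρ : Representation F ↥(alternatingGroup (Fin 5)) V) (y : V) : V :=
  y + ρ z5 y + ρ z5 (ρ z5 y) + ρ z5 (ρ z5 (ρ z5 y)) + ρ z5 (ρ z5 (ρ z5 (ρ z5 y)))

theorem zeta_add (x y : V) : zeta ρ (x + y) = zeta ρ x + zeta ρ y := by
  simp only [zeta, map_add]; abel

theorem zeta_zero (ρ : Representation F ↥(alternatingGroup (Fin 5)) V) : zeta ρ (0 : V) = 0 := by
  simp only [zeta, map_zero, add_zero]

theorem Axp.zeta {a b c d e f : V} (A : Axp ρ a b c d e f) (h5 : (5 : F) = 0) (hinv : ρ.invariants = ⊥) :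
    zeta ρ a = 0 ∧ zeta ρ b = -a ∧ zeta ρ c = -a ∧ zeta ρ d = -a ∧ zeta ρ e = -a ∧ zeta ρ f = -a := by
  have hs := A.sum hinv
  have hs' : b + d + f + e + c = -a := by
    rw [eq_neg_iff_add_eq_zero, ← hs]; abel
  have h5a : a + a + a + a + a = 0 := by
    have : (5 : F) • a = 0 := by rw [h5, zero_smul]
    rw [← this]
    module
  refine ⟨?_, ?_, ?_, ?_, ?_, ?_⟩
  · simp only [E6FiveFive.zeta, A.za]; exact h5a
  all_goals
    simp only [E6FiveFive.zeta, A.zb, A.zc, A.zd, A.ze, A.zf]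
    rw [← hs']
    try abel

/-- the space of vectors fixed by the dihedral group of order 10 has at most half the dimension of the space of vectors
fixed by the four-group -/
theorem plus_le [FiniteDimensional F V] (h2 : (2 : F) ≠ 0) (h5 : (5 : F) = 0) (hinv : ρ.invariants = ⊥) :
    2 * finrank F ↥(es (ρ z5) 1 ⊓ es (ρ v0) 1) ≤ finrank F ↥(es (ρ v0) 1 ⊓ es (ρ v1) 1) := by
  have hmem : ∀ {v : V}, v ∈ es (ρ z5) 1 ⊓ es (ρ v0) 1 ↔ ρ z5 v = v ∧ ρ v0 v = v := by
    intro v
    rw [Submodule.mem_inf, mem_es, mem_es, one_smul]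
  let Φ : (↥(es (ρ z5) 1 ⊓ es (ρ v0) 1) × ↥(es (ρ z5) 1 ⊓ es (ρ v0) 1)) →ₗ[F] V :=
    ((LinearMap.id + ρ v1) ∘ₗ (es (ρ z5) 1 ⊓ es (ρ v0) 1).subtype).coprod
      ((ρ c3 ∘ₗ (LinearMap.id + ρ v1)) ∘ₗ (es (ρ z5) 1 ⊓ es (ρ v0) 1).subtype)
  have hΦ : ∀ w, Φ w = ((w.1 : V) + ρ v1 (w.1 : V)) + ρ c3 ((w.2 : V) + ρ v1 (w.2 : V)) := fun w => rfl
  have hinj : Function.Injective Φ := by
    rw [← LinearMap.ker_eq_bot, eq_bot_iff]
    rintro ⟨⟨x, hx⟩, ⟨y, hy⟩⟩ hw
    rw [LinearMap.mem_ker, hΦ] at hw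
    obtain ⟨x1, x2⟩ := hmem.1 hx
    obtain ⟨y1, y2⟩ := hmem.1 hy
    have A := axp x1 x2
    have B := axp y1 y2
    obtain ⟨a0, a1, a2, a3, a4, a5⟩ := A.zeta h5 hinv
    obtain ⟨b0, b1, b2, b3, b4, b5⟩ := B.zeta h5 hinv
    have hw1 : x + ρ v1 x + (ρ c3 y + ρ c3 (ρ v1 y)) = 0 := by
      rw [← map_add]; exact hw
    have r1 := congrArg (E6FiveFive.zeta ρ) hw1
    rw [zeta_add, zeta_add, zeta_add, a0, a1, b2, b3, zeta_zero] at r1
    have hw2 := congrArg (ρ c3) hw1
    simp only [map_add, map_zero] at hw2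
    have hw3 : ρ c3 x + ρ c3 (ρ v1 x) + (ρ c3 (ρ c3 y) + ρ c3 (ρ c3 (ρ v1 y))) = 0 := hw2
    have r2 := congrArg (E6FiveFive.zeta ρ) hw3
    rw [zeta_add, zeta_add, zeta_add, a2, a3, b4, b5, zeta_zero] at r2
    -- r1 : 0 + -x + (-y + -y) = 0 ; r2 : -x + -x + (-y + -y) = 0
    have hxy : x = 0 := by
      have : x = (0 + -x + (-y + -y)) - (-x + -x + (-y + -y)) := by abel
      rw [this, r1, r2, sub_zero]
    have hy0 : y = 0 := by
      rw [hxy, neg_zero, add_zero, zero_add] at r1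
      have : (2 : F) • y = -(-y + -y) := by rw [two_smul]; abel
      rw [r1, neg_zero] at this
      exact (smul_eq_zero.1 this).resolve_left h2
    rw [Submodule.mem_bot]
    exact Prod.ext (Subtype.ext hxy) (Subtype.ext hy0)
  have hr : LinearMap.range Φ ≤ es (ρ v0) 1 ⊓ es (ρ v1) 1 := by
    rintro _ ⟨⟨⟨x, hx⟩, ⟨y, hy⟩⟩, rfl⟩
    obtain ⟨x1, x2⟩ := hmem.1 hx
    obtain ⟨y1, y2⟩ := hmem.1 hy
    have A := axp x1 x2
    have B := axp y1 y2
    rw [Submodule.mem_inf, mem_es, mem_es, one_smul, hΦ]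
    simp only [map_add, A.pa, A.pb, A.qb, B.pc, B.pd, B.qc, B.qd]
    constructor <;> abel
  have h1 := LinearMap.finrank_range_of_inj hinj
  have h3 := Submodule.finrank_mono hr
  rw [h1, Module.finrank_prod] at h3
  omega

end plus

/-! ### the main lemma -/

section key

open Cfsg.Agent.ChevalleyStructure.E6Min.Tables Cfsg.Agent.ChevalleyStructure.E6Min.Basic
  Cfsg.Agent.ChevalleyStructure.E6Min.Adjoint
open Cfsg.Agent.H952.F4.Jord
open Cfsg.Agent.H163.E6 (V V' Tab scal TS Lift Stab Sit)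
open Cfsg.Agent.H163.E6.Act (ev_dual sh_act tf_act ad_eq_one_iff)
open Cfsg.Agent.H952.F4.Cases.Five (inv5 inv3 v0_sq v0_ne c3_cube c3_ne z5_five z5_ne gen235 powo ne_one_of_order ev_two
  ev_three ev_five)

variable {E : Type u} [Field E]

/-- the values of `sh` and `cr` on the three vectors -/
theorem sq_eq {X : Fin 3 → (I27 → E)} (h2 : (2 : E) ≠ 0) (h5 : (5 : E) = 0)
    (h12p : sh (X 1 + (3 : E) • X 2) = 0) (h12m : sh (X 1 - (3 : E) • X 2) = 0)
    (h20p : sh (X 2 + (3 : E) • X 0) = 0) (h20m : sh (X 2 - (3 : E) • X 0) = 0)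
    (h01p : sh (X 0 + (3 : E) • X 1) = 0) (h01m : sh (X 0 - (3 : E) • X 1) = 0) :
    (cr (X 1) (X 2) = 0 ∧ cr (X 2) (X 0) = 0 ∧ cr (X 0) (X 1) = 0) ∧ sh (X 1) = sh (X 0) ∧ sh (X 2) = sh (X 0) := by
  have h3 : (3 : E) ≠ 0 := by
    intro h
    apply h2
    have : (2 : E) = 5 - 3 := by norm_num
    rw [this, h5, h, sub_zero]
  have key : ∀ {x y : I27 → E}, sh (x + (3 : E) • y) = 0 → sh (x - (3 : E) • y) = 0 → cr x y = 0 ∧ sh x = sh y := by
    intro x y hp hm
    rw [sh_add, sh_smul, cr_smul_right] at hp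
    rw [sub_eq_add_neg, ← neg_smul, sh_add, sh_smul, cr_smul_right] at hm
    have e1 : (2 : E) • ((3 : E) • cr x y) = 0 := by
      linear_combination (norm := module) hp - hm
    have e2 : (2 : E) • (sh x + (9 : E) • sh y) = 0 := by
      linear_combination (norm := module) hp + hm
    refine ⟨(smul_eq_zero.1 ((smul_eq_zero.1 e1).resolve_left h2)).resolve_left h3, ?_⟩
    have e3 := (smul_eq_zero.1 e2).resolve_left h2
    have e4 : (9 : E) = -1 := by linear_combination (2 : E) * h5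
    rw [e4] at e3
    linear_combination (norm := module) e3
  obtain ⟨c12, s1⟩ := key h12p h12m
  obtain ⟨c20, s2⟩ := key h20p h20m
  obtain ⟨c01, s0⟩ := key h01p h01m
  exact ⟨⟨c12, c20, c01⟩, s0.symm, s2⟩

/-- `sh` vanishes on the span of the three vectors -/
theorem ts_span' {X : Fin 3 → (I27 → E)} (h2 : (2 : E) ≠ 0)
    (c12 : cr (X 1) (X 2) = 0) (c20 : cr (X 2) (X 0) = 0) (c01 : cr (X 0) (X 1) = 0)
    (h0 : sh (X 0) = 0) (z1 : sh (X 1) = 0) (z2 : sh (X 2) = 0) : TS (Submodule.span E (Set.range X)) := by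
  have hcr : ∀ i j, cr (X i) (X j) = 0 := by
    have c10 : cr (X 1) (X 0) = 0 := by rw [cr_comm]; exact c01
    have c21 : cr (X 2) (X 1) = 0 := by rw [cr_comm]; exact c12
    have c02 : cr (X 0) (X 2) = 0 := by rw [cr_comm]; exact c20
    have c00 : cr (X 0) (X 0) = 0 := by rw [cr_self, h0, smul_zero]
    have c11 : cr (X 1) (X 1) = 0 := by rw [cr_self, z1, smul_zero]
    have c22 : cr (X 2) (X 2) = 0 := by rw [cr_self, z2, smul_zero]
    intro i j
    fin_cases i <;> fin_cases j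
    · exact c00
    · exact c01
    · exact c02
    · exact c10
    · exact c11
    · exact c12
    · exact c20
    · exact c21
    · exact c22
  have hz : ∀ y : I27 → E, cr (0 : I27 → E) y = 0 := by
    intro y
    have := cr_smul_left (0 : E) 0 y
    rwa [zero_smul, zero_smul] at this
  have hcr1 : ∀ i, ∀ y ∈ Submodule.span E (Set.range X), cr y (X i) = 0 := by
    intro i y hy
    induction hy using Submodule.span_induction with
    | mem x hx =>
      obtain ⟨j, rfl⟩ := hx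
      exact hcr j i
    | zero => exact hz _
    | add x y _ _ hx hy => rw [cr_add_left, hx, hy, add_zero]
    | smul a x _ hx => rw [cr_smul_left, hx, smul_zero]
  have hcr2 : ∀ y ∈ Submodule.span E (Set.range X), ∀ x ∈ Submodule.span E (Set.range X), cr x y = 0 := by
    intro y hy x hx
    induction hx using Submodule.span_induction with
    | mem x hx =>
      obtain ⟨j, rfl⟩ := hx
      rw [cr_comm]
      exact hcr1 j y hy
    | zero => exact hz _
    | add x y _ _ hx hy => rw [cr_add_left, hx, hy, add_zero]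
    | smul a x _ hx => rw [cr_smul_left, hx, smul_zero]
  refine ⟨fun x hx => ?_, fun x hx y hy => hcr2 y hy x hx⟩
  have h : (2 : E) • sh x = 0 := by rw [← cr_self]; exact hcr2 x hx x hx
  exact (smul_eq_zero.1 h).resolve_left h2

/-- `A₅` in characteristic 5 without fixed vectors on `V` and `V'` stabilizes a totally singular 3-space -/
theorem key [Finite E] [CharP E 5] (T : Tab 5 E) (θ : ↥(alternatingGroup (Fin 5)) →* ↥(Zgrp E))
    (h1 : Representation.invariants (MonoidHom.comp (V E) θ) = ⊥)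
    (h2 : Representation.invariants (MonoidHom.comp (V' E) θ) = ⊥) :
    ∃ W : Submodule E (I27 → E), finrank E ↥W = 3 ∧ TS W ∧ ∀ a, ∀ w ∈ W, V E (θ a) w ∈ W := by
  have hp5 : Fact (Nat.Prime 5) := ⟨Nat.prime_five⟩
  have h5 : (5 : E) = 0 := by exact_mod_cast CharP.cast_eq_zero E 5
  have two_ne : (2 : E) ≠ 0 := by
    intro h
    have h' : ((2 : ℕ) : E) = 0 := by exact_mod_cast h
    rw [CharP.cast_eq_zero_iff E 5] at h'
    omega
  -- nontriviality
  have hne : ∀ a, a ≠ 1 → θ a ≠ 1 := by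
    intro a ha h
    have h3 : ∀ b, θ b = 1 := hom_trivial θ ha h
    have h4 : (fun _ => (1 : E) : I27 → E) ∈ Representation.invariants (MonoidHom.comp (V E) θ) := by
      rw [Representation.mem_invariants]
      intro g
      rw [MonoidHom.comp_apply, h3, map_one]
      rfl
    rw [h1, Submodule.mem_bot] at h4
    have h5 := congrFun h4 (0, 0, 0)
    exact one_ne_zero h5
  let ρ : Representation E ↥(alternatingGroup (Fin 5)) (I27 → E) := MonoidHom.comp (V E) θ
  let ρ' : Representation E ↥(alternatingGroup (Fin 5)) (I27 → E) := MonoidHom.comp (V' E) θ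
  have hρ : ∀ a, ρ a = V E (θ a) := fun a => rfl
  have hρ' : ∀ a, ρ' a = V' E (θ a) := fun a => rfl
  have hdim : finrank E (I27 → E) = 27 := by
    rw [Module.finrank_fintype_fun_eq_card]
    decide
  -- dimensions of the eigenspaces
  have s2 : θ v0 * θ v0 = 1 := by rw [← map_mul, v0_sq, map_one]
  have s3 : θ c3 ^ 3 = 1 := by rw [← map_pow, c3_cube, map_one]
  have r3 : ∃ g, g * θ c3 * g⁻¹ = (θ c3)⁻¹ := by
    obtain ⟨s, -, -, hs⟩ := inv3
    exact ⟨θ s, by rw [← map_inv, ← map_mul, ← map_mul, hs, map_inv]⟩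
  have had3 : ad E (θ c3) ≠ 1 := by
    intro h
    obtain ⟨c, hc3, hc⟩ := (ad_eq_one_iff _).1 h
    obtain ⟨g, hg⟩ := r3
    have e1 : ((θ c3)⁻¹ : ↥(Zgrp E)) = θ c3 := by
      rw [← hg, mul_inv_eq_iff_eq_mul]
      apply Subtype.ext
      rw [Subgroup.coe_mul, Subgroup.coe_mul, hc]
      apply Units.ext
      show ((g : GL I27 E) : Matrix I27 I27 E) * algebraMap E _ (c : E) =
        algebraMap E _ (c : E) * ((g : GL I27 E) : Matrix I27 I27 E)
      exact (Algebra.commutes _ _).symm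
    have e2 : θ c3 * θ c3 = 1 := by
      nth_rewrite 1 [← e1]
      exact inv_mul_cancel _
    have e3 : θ c3 = 1 := by
      have := s3
      rwa [pow_succ, pow_two, e2, one_mul] at this
    exact hne c3 c3_ne e3
  have f3 : 9 ≤ ev (ρ c3) 1 := by
    have h := T.three (by norm_num) (θ c3) had3 s3
    have h' := T.three_real (by norm_num) (θ c3) had3 s3 r3
    rw [hρ]
    omega
  have f5 : 6 ≤ ev (ρ z5) 1 := by
    have h := H952.F4.Eig.le_mul_ev 5 (T := ρ z5) (by rw [← map_pow, z5_five, map_one])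
    rw [hdim] at h
    omega
  have f2 := T.two (by norm_num) (θ v0) (hne _ v0_ne) s2
  rw [← hρ] at f2
  obtain ⟨x, y, hgen, hx, hy, hxy⟩ := gen235 H952.F4.Gen.gen5
  have hsc := H952.F4.Scott.scott ρ hgen
  have hd := dual_bot tf_act θ h2
  have hsc' : ev (ρ x) 1 + ev (ρ y) 1 + ev (ρ (x * y)) 1 ≤ 27 := by
    have e1 : ρ.invariants = ⊥ := h1
    have e2 : ρ.dual.invariants = ⊥ := hd
    rw [e1, e2, finrank_bot, finrank_bot, hdim] at hsc
    exact hsc
  rw [ev_two (ρ := ρ) (g := x) (by rw [← pow_two]; exact powo hx) (ne_one_of_order hx (by norm_num)),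
    ev_three (ρ := ρ) (g := y) (powo hy) (ne_one_of_order hy (by norm_num)),
    ev_five (ρ := ρ) (g := x * y) (powo hxy) (ne_one_of_order hxy (by norm_num))] at hsc'
  have g2 : ev (ρ v0) 1 = 11 := by omega
  -- the four-group and the dihedral group
  have hdual : ∀ g : ↥(Zgrp E), ev (V' E g) 1 = ev (V E g) 1 := fun g => by rw [ev_dual g one_ne_zero, inv_one]
  have g2' : ev (ρ' v0) 1 = 11 := (hdual (θ v0)).trans g2
  have hv1 : v1 * v1 = (1 : ↥(alternatingGroup (Fin 5))) := by decide +kernel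
  have hv1' : v1 ≠ (1 : ↥(alternatingGroup (Fin 5))) := by decide +kernel
  have hv01 : v0 * v1 = v1 * v0 := by decide +kernel
  have hv2 : v0 * v1 * (v0 * v1) = (1 : ↥(alternatingGroup (Fin 5))) := by decide +kernel
  have hv2' : v0 * v1 ≠ (1 : ↥(alternatingGroup (Fin 5))) := by decide +kernel
  have four : ∀ σ : Representation E ↥(alternatingGroup (Fin 5)) (I27 → E), ev (σ v0) 1 = 11 →
      finrank E ↥(es (σ v0) 1 ⊓ es (σ v1) 1) = 3 := by
    intro σ hσ
    have h := H952.F4.Eig.four two_ne σ v0_sq hv1 hv01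
    rw [ev_two (ρ := σ) hv1 hv1', ev_two (ρ := σ) hv2 hv2', hσ, hdim] at h
    omega
  have m1 : finrank E ↥(es (ρ z5) 1 ⊓ es (ρ v0) 1) ≤ 1 := by
    have h := plus_le (ρ := ρ) two_ne h5 h1
    rw [four ρ g2] at h
    omega
  have m1' : finrank E ↥(es (ρ' z5) 1 ⊓ es (ρ' v0) 1) ≤ 1 := by
    have h := plus_le (ρ := ρ') two_ne h5 h2
    rw [four ρ' g2'] at h
    omega
  have hX0 : 5 ≤ finrank E ↥(es (ρ z5) 1 ⊓ es (ρ v0) (-1)) := by
    have h := H546.F4Eig.split_inv ρ two_ne v0_sq (es (ρ z5) 1) (fun v hv => by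
      rw [mem_es, one_smul] at hv ⊢
      have e : z5 * v0 = v0 * (z5 * (z5 * (z5 * z5))) := by decide +kernel
      rw [← mul_act, e]
      simp only [mul_act, hv])
    have h' : finrank E ↥(es (ρ z5) 1) = ev (ρ z5) 1 := rfl
    omega
  -- the kernel of `sop`
  have hmem : ∀ {v : I27 → E}, v ∈ es (ρ z5) 1 ⊓ es (ρ v0) (-1) ↔ ρ z5 v = v ∧ ρ v0 v = -v := by
    intro v
    rw [Submodule.mem_inf, mem_es, mem_es, one_smul, neg_smul, one_smul]
  have hU : 3 ≤ finrank E ↥(es (ρ z5) 1 ⊓ es (ρ v0) (-1) ⊓ es (sop ρ) 0) := by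
    have h := split (sop ρ) (es (ρ z5) 1 ⊓ es (ρ v0) (-1)) (fun v hv => by
      rw [hmem] at hv ⊢
      exact ⟨(sop_mem hv.1 hv.2).1, (sop_mem hv.1 hv.2).2.1⟩) 0 (fun v hv => by
      rw [hmem] at hv
      rw [(sop_mem hv.1 hv.2).2.2, h5, mul_zero])
    rw [neg_zero] at h
    omega
  -- the quadratic form
  obtain ⟨i, hi⟩ := exists_coord m1'
  obtain ⟨⟨u, hu⟩, hu0, huQ⟩ := exists_zero two_ne hU (fun u => sh (u : I27 → E) i)
    (LinearMap.mk₂ E (fun u v => cr (u : I27 → E) (v : I27 → E) i)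
      (fun u u' v => by rw [Submodule.coe_add, cr_add_left]; rfl)
      (fun c u v => by rw [Submodule.coe_smul, cr_smul_left]; rfl)
      (fun u v v' => by rw [Submodule.coe_add, cr_add_right]; rfl)
      (fun c u v => by rw [Submodule.coe_smul, cr_smul_right]; rfl))
    (fun u v => by rw [Submodule.coe_add, sh_add]; rfl)
    (fun c u => by rw [Submodule.coe_smul, sh_smul]; rfl)
  have hu0' : u ≠ 0 := fun h => hu0 (Subtype.ext h)
  obtain ⟨hu1, hu2⟩ := hmem.1 hu.1
  have hu3 : sop ρ u = (2 * (3 : E) - 1) • u := by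
    have e : (2 * (3 : E) - 1) = 0 := by rw [← h5]; norm_num
    rw [e]
    exact mem_es.1 hu.2
  have hshu : sh u = 0 := by
    apply hi _ _ huQ
    rw [Submodule.mem_inf, mem_es, mem_es, one_smul, hρ', hρ', ← sh_act, ← sh_act, ← hρ, ← hρ, hu1, hu2]
    refine ⟨rfl, ?_⟩
    rw [← neg_one_smul E u, sh_smul]
    norm_num
  have hshg : ∀ (g : ↥(alternatingGroup (Fin 5))) (v : I27 → E), sh v = 0 → sh (ρ g v) = 0 := by
    intro g v hv
    rw [hρ, sh_act, hv, map_zero]
  -- the three-dimensional module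
  obtain ⟨X, -, hX0', hxX, ⟨a0, a1, a2⟩, ⟨b0, b1, b2⟩, hc, hz0, hz1, hz2⟩ := axes two_ne ρ hu0' hu1 hu2 hu3
  obtain ⟨hc0, hc1, hc2⟩ := hc
  have hli := linInd two_ne hX0' ⟨a0, a1, a2⟩ ⟨b0, b1, b2⟩
  have k1 : sh (X 1 + (3 : E) • X 2) = 0 := by rw [← hxX]; exact hshu
  have k2 : sh (X 1 - (3 : E) • X 2) = 0 := by
    have := hshg v1 _ k1
    rwa [map_add, map_smul, b1, b2, smul_neg, ← sub_eq_add_neg] at this
  have k3 : sh (X 2 + (3 : E) • X 0) = 0 := by
    have := hshg c3 _ k1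
    rwa [map_add, map_smul, hc1, hc2] at this
  have k4 : sh (X 2 - (3 : E) • X 0) = 0 := by
    have := hshg c3 _ k2
    rwa [map_sub, map_smul, hc1, hc2] at this
  have k5 : sh (X 0 + (3 : E) • X 1) = 0 := by
    have := hshg c3 _ k3
    rwa [map_add, map_smul, hc0, hc2] at this
  have k6 : sh (X 0 - (3 : E) • X 1) = 0 := by
    have := hshg c3 _ k4
    rwa [map_sub, map_smul, hc0, hc2] at this
  obtain ⟨⟨c12, c20, c01⟩, t1, t2⟩ := sq_eq two_ne h5 k1 k2 k3 k4 k5 k6
  have c02 : cr (X 0) (X 2) = 0 := by rw [cr_comm]; exact c20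
  -- the common value of `sh` is fixed
  have hY : sh (X 0) = 0 := by
    have hcY : ρ' c3 (sh (X 0)) = sh (X 0) := by rw [hρ', ← sh_act, ← hρ, hc0, t1]
    have hzY : ρ' z5 (sh (X 0)) = sh (X 0) := by
      have e1 : sh ((2 : E) • ρ z5 (X 0)) = (4 : E) • ρ' z5 (sh (X 0)) := by
        rw [sh_smul, hρ, sh_act, hρ']
        norm_num
      have e2 : ((3 : E) - 1) • X 0 - (3 : E) • X 1 + X 2 = (2 : E) • X 0 + ((-3 : E) • X 1 + X 2) := by
        module
      rw [hz0, e2, sh_add, sh_add, cr_add_right, cr_smul_left, cr_smul_left, cr_smul_left, cr_smul_right, c01, c02, c12,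
        sh_smul, sh_smul, t1, t2] at e1
      have e3 : (4 : E) • (ρ' z5 (sh (X 0)) - sh (X 0)) = (10 : E) • sh (X 0) := by
        rw [smul_sub, ← e1]
        module
      have e4 : (10 : E) = 0 := by linear_combination (2 : E) * h5
      rw [e4, zero_smul] at e3
      have four_ne : (4 : E) ≠ 0 := by
        have : (4 : E) = 2 * 2 := by norm_num
        rw [this]
        exact mul_ne_zero two_ne two_ne
      exact sub_eq_zero.1 ((smul_eq_zero.1 e3).resolve_left four_ne)
    have hm : sh (X 0) ∈ Representation.invariants (MonoidHom.comp (V' E) θ) := by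
      rw [Representation.mem_invariants]
      intro g
      have hg : g ∈ Subgroup.closure {z5, c3} := by rw [closure_eq]; trivial
      show ρ' g (sh (X 0)) = sh (X 0)
      induction hg using Subgroup.closure_induction with
      | mem x hx =>
        rcases hx with rfl | rfl
        · exact hzY
        · exact hcY
      | one => rw [map_one]; rfl
      | mul x y _ _ hx hy => rw [mul_act, hy, hx]
      | inv x _ hx =>
        apply act_inj (ρ := ρ') (g := x)
        rw [← mul_act, mul_inv_cancel, map_one, hx]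
        rfl
    rwa [h2, Submodule.mem_bot] at hm
  refine ⟨Submodule.span E (Set.range X), by rw [finrank_span_eq_card hli, Fintype.card_fin],
    ts_span' two_ne c12 c20 c01 hY (by rw [t1, hY]) (by rw [t2, hY]), ?_⟩
  intro a w hw
  exact span_stable two_ne ⟨hc0, hc1, hc2⟩ hz0 hz1 hz2 a w hw

/-- a subspace stable under a lift of the alternating group is stable under the full preimage -/
theorem stab_of_lift {n : ℕ} {φ : ↥(alternatingGroup (Fin n)) →* ↥(chevE6.group E)}
    {ψ : ↥(alternatingGroup (Fin n)) →* ↥(Zgrp E)} (hψ : Lift φ ψ) {W : Submodule E (I27 → E)}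
    (hW : ∀ a, ∀ w ∈ W, V E (ψ a) w ∈ W) : Stab (V E) φ.range W := by
  rintro g ⟨a, ha⟩ w hw
  have h1 : ad E (g * (ψ a)⁻¹) = 1 := by
    rw [map_mul, map_inv, hψ a, ha, mul_inv_cancel]
  obtain ⟨c, -, hc⟩ := (ad_eq_one_iff _).1 h1
  have h2 : V E g w = V E (g * (ψ a)⁻¹) (V E (ψ a) w) := by
    rw [← Module.End.mul_apply, ← map_mul, inv_mul_cancel_right]
  have h3 : ∀ x : I27 → E, V E (g * (ψ a)⁻¹) x = (c : E) • x := by
    intro x
    rw [H163.E6.V_apply, hc, H163.E6.Act.coe_scal, Matrix.smul_mulVec, Matrix.one_mulVec]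
  rw [h2, h3]
  exact W.smul_mem _ (hW a w hw)

/-- the final statement, with the table and the lift as hypotheses -/
theorem five_five_of [Finite E] [CharP E 5] {H : Subgroup ↥(chevE6.group E)}
    {φ : ↥(alternatingGroup (Fin 5)) →* ↥(chevE6.group E)} (hS : Sit H 5 φ) (T : Tab 5 E)
    {ψ : ↥(alternatingGroup (Fin 5)) →* ↥(Zgrp E)} (hψ : Lift φ ψ) : False := by
  have two_ne : (2 : E) ≠ 0 := by
    intro h
    have h' : ((2 : ℕ) : E) = 0 := by exact_mod_cast h
    rw [CharP.cast_eq_zero_iff E 5] at h'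
    omega
  obtain ⟨h1, h2⟩ := hS.no_fixed ψ hψ
  obtain ⟨W, h3, hW, hst⟩ := key T ψ h1 h2
  exact hS.no_three (Or.inr two_ne) (V E) (Or.inl rfl) W (stab_of_lift hψ hst) h3 hW

end key

end Cfsg.Agent.H952.E6FiveFive

namespace Cfsg.Agent.H163.E6.Cases

open Cfsg Cfsg.Lie Module
open Cfsg.Agent.ChevalleyStructure.E6Min.Tables Cfsg.Agent.ChevalleyStructure.E6Min.Basic
  Cfsg.Agent.ChevalleyStructure.E6Min.Adjoint

universe u

variable {F : Type u} [Field F] [Finite F] {H : Subgroup ↥(chevE6.group F)}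

theorem five_five [CharP F 5] {φ : ↥(alternatingGroup (Fin 5)) →* ↥(chevE6.group F)} (hS : Sit H 5 φ) : False := by
  have : Fact (Nat.Prime 5) := ⟨Nat.prime_five⟩
  obtain ⟨ψ, hψ⟩ : ∃ ψ : ↥(alternatingGroup (Fin 5)) →* ↥(Zgrp F), Lift φ ψ := by
    rcases Cov.exists_lift le_rfl hS.inj with h | ⟨h, -⟩
    · exact h
    · omega
  exact H952.E6FiveFive.five_five_of hS (Tor.tab 5) hψ

end Cfsg.Agent.H163.E6.Cases
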